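import Cfsg.Agent.R2.H1.F4.AlphaS

/-!
# S5931: strings and stable subspaces (helper1)

* `Str.mem_of` : a stable subspace containing a nonzero combination of a string contains the string;
* `tf_diff` : strings of different lengths are orthogonal (also for different embeddings of `K`).
-/

set_option autoImplicit false
set_option linter.unusedSectionVars false

namespace Cfsg.Agent.R2.H1.F4

open Cfsg Cfsg.Lie Module Cfsg.Agent.H952.F4 Cfsg.Agent.H952.F4.Jord
open Cfsg.Agent.ChevalleyStructure.E6Min.Tables Cfsg.Agent.ChevalleyStructure.E6Min.Basic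
open Cfsg.Agent.R2.F4N (Str)
open Cfsg.Agent.R2.F4L (Act)
open Cfsg.Agent.H952.F4.FixV (tfL tfL_apply)
open Matrix Finset

universe u v w

section gen

variable {k : Type u} [Field k] {K : Type w} [Field K] [Fintype K] {κ : K →+* k} {W : Type v} [AddCommGroup W] [Module k W]
variable {ρ : Representation k (SpecialLinearGroup (Fin 2) K) W}

/-- coefficients of polynomials with values in a subspace -/
theorem coef_mem (κ : K →+* k) {S : Submodule k W} {d : ℕ} (hd : d ≤ Fintype.card K) {c : ℕ → W}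
    (h : ∀ t : K, ∑ j ∈ range d, κ t ^ j • c j ∈ S) : ∀ j < d, c j ∈ S := by
  intro j hj
  by_contra hne
  obtain ⟨l, hl, hl'⟩ := Submodule.exists_le_ker_of_notMem hne
  have h1 := R2.F4N.coef_zero κ hd (c := fun i => l (c i)) (fun t => by
    have h2 := hl' (h t)
    rw [LinearMap.mem_ker, map_sum] at h2
    rw [← h2]
    refine sum_congr rfl fun i _ => ?_
    rw [map_smul, smul_eq_mul, mul_comm]) j hj
  exact hl h1

theorem str_top_mem {n : ℕ} {x : ℕ → W} (hx : Str κ ρ n x) (hn : n < Fintype.card K) {S : Submodule k W}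
    (hS : ∀ g, ∀ v ∈ S, ρ g v ∈ S) {c : ℕ → k} (hv : ∑ a ∈ range (n + 1), c a • x a ∈ S) {a₀ : ℕ} (ha : a₀ ≤ n)
    (hc : c a₀ ≠ 0) : x n ∈ S := by
  classical
  -- the least index with a nonzero coefficient
  have hex : ∃ m, m ≤ n ∧ c m ≠ 0 := ⟨a₀, ha, hc⟩
  obtain ⟨hm, hcm⟩ := Nat.find_spec hex
  set m := Nat.find hex
  have hmin : ∀ i < m, c i = 0 := fun i hi => by
    by_contra h
    exact Nat.find_min hex hi ⟨by omega, h⟩
  have h1 := coef_mem κ (S := S) (d := n + 1) (by omega) (c := fun j => ∑ a ∈ range (n + 1),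
      (c a * ((n - a).choose j : k)) • x (a + j)) (fun t => by
    have h2 := hS (Cfsg.Agent.H943.SL2Rel.u t) _ hv
    rw [map_sum] at h2
    convert h2 using 1
    have h3 : ∀ a ∈ range (n + 1), ρ (Cfsg.Agent.H943.SL2Rel.u t) (c a • x a) =
        ∑ j ∈ range (n + 1), κ t ^ j • ((c a * ((n - a).choose j : k)) • x (a + j)) := by
      intro a ha
      rw [mem_range] at ha
      rw [map_smul, hx.u' (d := n + 1) (by omega) (by omega), smul_sum]
      refine sum_congr rfl fun j _ => ?_
      rw [smul_smul, smul_smul]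
      congr 1
      ring
    rw [sum_congr rfl h3, sum_comm]
    refine sum_congr rfl fun j _ => ?_
    rw [smul_sum]) (n - m) (by omega)
  have h4 : (∑ a ∈ range (n + 1), (c a * ((n - a).choose (n - m) : k)) • x (a + (n - m))) = c m • x n := by
    rw [sum_eq_single m]
    · rw [Nat.choose_self, Nat.cast_one, mul_one, Nat.add_sub_of_le hm]
    · intro a ha hne
      rw [mem_range] at ha
      rcases Nat.lt_or_ge a m with h | h
      · rw [hmin a h, zero_mul, zero_smul]
      · rw [Nat.choose_eq_zero_of_lt (by omega), Nat.cast_zero, mul_zero, zero_smul]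
    · intro h
      exact absurd (mem_range.2 (by omega)) h
  rw [h4] at h1
  have h5 := S.smul_mem (c m)⁻¹ h1
  rwa [smul_smul, inv_mul_cancel₀ hcm, one_smul] at h5

theorem str_all_mem {p : ℕ} [Fact p.Prime] [CharP k p] (hpK : p ≤ Fintype.card K) {n : ℕ} {x : ℕ → W} (hx : Str κ ρ n x)
    (hn : n < p) {S : Submodule k W} (hS : ∀ g, ∀ v ∈ S, ρ g v ∈ S) (h : x n ∈ S) : ∀ a ≤ n, x a ∈ S := by
  have h0 : x 0 ∈ S := by
    have h1 := hS (Cfsg.Agent.H943.SL2Rel.w) _ h
    rw [hx.w n le_rfl, Nat.sub_self] at h1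
    have h2 := S.smul_mem ((-1 : k) ^ n) h1
    rwa [smul_smul, ← mul_pow, neg_one_mul, neg_neg, one_pow, one_smul] at h2
  intro a ha
  have h1 := coef_mem κ (S := S) (d := n + 1) (by omega) (c := fun j => (n.choose j : k) • x j) (fun t => by
    have h2 := hS (Cfsg.Agent.H943.SL2Rel.u t) _ h0
    rw [hx.u' (d := n + 1) (by omega) (Nat.zero_le n)] at h2
    convert h2 using 1
    refine sum_congr rfl fun j _ => ?_
    rw [Nat.sub_zero, zero_add, smul_smul, mul_comm]) a (by omega)
  have hne : (n.choose a : k) ≠ 0 := R2.F4N.choose_ne (p := p) hn ha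
  have h5 := S.smul_mem (n.choose a : k)⁻¹ h1
  rwa [smul_smul, inv_mul_cancel₀ hne, one_smul] at h5

/-- **irreducibility** -/
theorem str_mem_of {p : ℕ} [Fact p.Prime] [CharP k p] (hpK : p ≤ Fintype.card K) {n : ℕ} {x : ℕ → W} (hx : Str κ ρ n x)
    (hn : n < p) {S : Submodule k W} (hS : ∀ g, ∀ v ∈ S, ρ g v ∈ S) {v : W} (hv : v ∈ S) (hv0 : v ≠ 0)
    (hvx : v ∈ Submodule.span k {w | ∃ a, a ≤ n ∧ w = x a}) : ∀ a ≤ n, x a ∈ S := by
  have h1 : ∃ c : ℕ → k, v = ∑ a ∈ range (n + 1), c a • x a := by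
    clear hv hv0
    induction hvx using Submodule.span_induction with
    | mem w hw =>
      obtain ⟨b, hb, rfl⟩ := hw
      refine ⟨fun a => if a = b then 1 else 0, ?_⟩
      rw [sum_eq_single b]
      · simp only [if_true, one_smul]
      · intro a _ hne
        simp only [if_neg hne, zero_smul]
      · intro h
        exact absurd (mem_range.2 (by omega)) h
    | zero => exact ⟨fun _ => 0, by simp⟩
    | add w w' _ _ ih ih' =>
      obtain ⟨c, hc⟩ := ih
      obtain ⟨c', hc'⟩ := ih'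
      refine ⟨fun a => c a + c' a, ?_⟩
      rw [hc, hc', ← sum_add_distrib]
      exact sum_congr rfl fun a _ => (add_smul _ _ _).symm
    | smul r w _ ih =>
      obtain ⟨c, hc⟩ := ih
      refine ⟨fun a => r * c a, ?_⟩
      rw [hc, smul_sum]
      exact sum_congr rfl fun a _ => smul_smul _ _ _
  obtain ⟨c, rfl⟩ := h1
  have h2 : ∃ a₀ ≤ n, c a₀ ≠ 0 := by
    by_contra h
    push Not at h
    apply hv0
    exact sum_eq_zero fun a ha => by rw [h a (by rw [mem_range] at ha; omega), zero_smul]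
  obtain ⟨a₀, ha₀, hc₀⟩ := h2
  exact str_all_mem hpK hx hn hS (str_top_mem hx (by omega) hS hv ha₀ hc₀)

/-- the span of a string is stable -/
theorem str_stable {n : ℕ} {x : ℕ → W} (hx : Str κ ρ n x) (g : SpecialLinearGroup (Fin 2) K) :
    ∀ v ∈ Submodule.span k {w | ∃ a, a ≤ n ∧ w = x a}, ρ g v ∈ Submodule.span k {w | ∃ a, a ≤ n ∧ w = x a} := by
  classical
  have key : ∀ g, (∀ a ≤ n, ρ g (x a) ∈ Submodule.span k {w | ∃ a, a ≤ n ∧ w = x a}) →
      ∀ v ∈ Submodule.span k {w | ∃ a, a ≤ n ∧ w = x a}, ρ g v ∈ Submodule.span k {w | ∃ a, a ≤ n ∧ w = x a} := by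
    intro g h v hv
    have h1 : Submodule.span k {w | ∃ a, a ≤ n ∧ w = x a} ≤
        (Submodule.span k {w | ∃ a, a ≤ n ∧ w = x a}).comap (ρ g) := by
      rw [Submodule.span_le]
      rintro w ⟨a, ha, rfl⟩
      exact h a ha
    exact h1 hv
  refine Cfsg.Agent.H943.SL2Rel.induct (P := fun g => ∀ v ∈ Submodule.span k {w | ∃ a, a ≤ n ∧ w = x a},
    ρ g v ∈ Submodule.span k {w | ∃ a, a ≤ n ∧ w = x a}) ?_ ?_ ?_ ?_ g
  · intro t
    refine key _ fun a ha => ?_
    rw [hx.u a ha]
    refine Submodule.sum_mem _ fun j hj => Submodule.smul_mem _ _ (Submodule.subset_span ⟨a + j, ?_, rfl⟩)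
    rw [mem_range] at hj
    omega
  · intro t
    refine key _ fun a ha => ?_
    rw [hx.h a ha]
    exact Submodule.smul_mem _ _ (Submodule.subset_span ⟨a, ha, rfl⟩)
  · refine key _ fun a ha => ?_
    rw [hx.w a ha]
    exact Submodule.smul_mem _ _ (Submodule.subset_span ⟨n - a, by omega, rfl⟩)
  · intro g g' h h' v hv
    rw [map_mul, Module.End.mul_apply]
    exact h _ (h' _ hv)

end gen

section tf

variable {k : Type u} [Field k] {K : Type w} [Field K] [Fintype K] {κ κ' : K →+* k}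
variable {ρ : Representation k (SpecialLinearGroup (Fin 2) K) (I27 → k)}
variable {p : ℕ} [Fact p.Prime] [CharP k p] (hpK : p ≤ Fintype.card K)

include hpK

theorem tf_lt (H : Act ρ) {n m : ℕ} {x z : ℕ → (I27 → k)} (hx : Str κ ρ n x) (hz : Str κ' ρ m z) (hn : n < p)
    (hnm : m < n) : ∀ a ≤ n, ∀ c ≤ m, tf (x a) (z c) = 0 := by
  classical
  let S : Submodule k (I27 → k) :=
    { carrier := {v | ∀ w ∈ Submodule.span k {w | ∃ a, a ≤ m ∧ w = z a}, tf v w = 0}
      add_mem' := fun {v v'} h h' w hw => by rw [tf_add_left, h w hw, h' w hw, add_zero]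
      zero_mem' := fun w _ => by
        have := tf_smul_left (0 : k) (0 : I27 → k) w
        rwa [zero_smul, zero_mul] at this
      smul_mem' := fun c v h w hw => by rw [tf_smul_left, h w hw, mul_zero] }
  have hS : ∀ g, ∀ v ∈ S, ρ g v ∈ S := by
    intro g v hv w hw
    have h1 : w = ρ g (ρ g⁻¹ w) := by
      rw [← Module.End.mul_apply, ← map_mul, mul_inv_cancel, map_one, Module.End.one_apply]
    rw [h1, H.tf]
    exact hv _ (str_stable hz g⁻¹ w hw)
  -- a nonzero combination in `S`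
  have hex : ∃ c : Fin (n + 1) → k, c ≠ 0 ∧ ∀ j : Fin (m + 1), ∑ i : Fin (n + 1), c i * tf (x i) (z j) = 0 := by
    let L : (Fin (n + 1) → k) →ₗ[k] (Fin (m + 1) → k) :=
      { toFun := fun c j => ∑ i : Fin (n + 1), c i * tf (x i) (z j)
        map_add' := fun c c' => by
          funext j
          simp only [Pi.add_apply, add_mul, sum_add_distrib]
        map_smul' := fun r c => by
          funext j
          simp only [Pi.smul_apply, smul_eq_mul, RingHom.id_apply, mul_sum, mul_assoc] }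
    have h1 : LinearMap.ker L ≠ ⊥ := LinearMap.ker_ne_bot_of_finrank_lt (by
      rw [Module.finrank_fin_fun, Module.finrank_fin_fun]
      omega)
    obtain ⟨c, hc, hc0⟩ := Submodule.exists_mem_ne_zero_of_ne_bot h1
    exact ⟨c, hc0, fun j => congrFun (LinearMap.mem_ker.1 hc) j⟩
  obtain ⟨c, hc0, hc⟩ := hex
  obtain ⟨i₀, hi₀⟩ : ∃ i, c i ≠ 0 := by
    by_contra h
    push Not at h
    exact hc0 (funext h)
  have htop : x n ∈ S := by
    refine str_top_mem hx (by omega) hS (c := fun a => if h : a < n + 1 then c ⟨a, h⟩ else 0) ?_ (a₀ := i₀.1)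
      (by have := i₀.2; omega) (by rw [dif_pos i₀.2]; exact hi₀)
    have h1 : ∑ a ∈ range (n + 1), (if h : a < n + 1 then c ⟨a, h⟩ else 0) • x a = ∑ i : Fin (n + 1), c i • x i := by
      rw [sum_range]
      refine sum_congr rfl fun i _ => ?_
      rw [dif_pos i.2]
    rw [h1]
    intro w hw
    induction hw using Submodule.span_induction with
    | mem w hw =>
      obtain ⟨j, hj, rfl⟩ := hw
      have h2 := hc ⟨j, by omega⟩
      rw [← tfL_apply, map_sum, LinearMap.sum_apply, ← h2]
      refine sum_congr rfl fun i _ => ?_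
      rw [tfL_apply, tf_smul_left]
    | zero =>
      rw [← tfL_apply, map_zero]
    | add w w' _ _ ih ih' => rw [tf_add_right, ih, ih', add_zero]
    | smul r w _ ih => rw [tf_smul_right, ih, mul_zero]
  intro a ha c' hc'
  exact str_all_mem hpK hx hn hS htop a ha (z c') (Submodule.subset_span ⟨c', hc', rfl⟩)

/-- **strings of different lengths are orthogonal** -/
theorem tf_diff (H : Act ρ) {n m : ℕ} {x z : ℕ → (I27 → k)} (hx : Str κ ρ n x) (hz : Str κ' ρ m z) (hn : n < p)
    (hm : m < p) (hnm : n ≠ m) : ∀ a ≤ n, ∀ c ≤ m, tf (x a) (z c) = 0 := by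
  rcases Nat.lt_or_gt_of_ne hnm with h | h
  · intro a ha c hc
    rw [tf_comm]
    exact tf_lt hpK H hz hx hm h c hc a ha
  · exact tf_lt hpK H hx hz hn h

end tf

end Cfsg.Agent.R2.H1.F4
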